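import Cfsg.Agent.H946.ExcNum
import Cfsg.Agent.H290.ElCross

/-!
# S3938, row `³D₄(q)`: the simple groups in cross characteristic whose order is divisible by `q⁴ - q² + 1` (helper778)
-/

set_option autoImplicit false

namespace Cfsg.Agent.H778.Spr

open Cfsg.Agent.H902 Cfsg.Agent.H290.ElReg Cfsg.Agent.H290.ElTab Cfsg.Agent.H290.ElCross Cfsg.Agent.H946.Num

/-- the product of the primes `< 620` not congruent to 1 modulo 12 -/
def badp : ℕ := (prs.filter fun r => r % 12 != 1).prod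

/-- the part prime to `badp` -/
def strip (N : ℕ) : ℕ := N / Nat.gcd N (badp ^ 100)

theorem coprime_badp {q : ℕ} : Nat.Coprime (N12 q) badp := by
  rw [Nat.coprime_iff_gcd_eq_one]
  by_contra h
  obtain ⟨s, hs, hd⟩ := Nat.exists_prime_and_dvd h
  have h1 := hd.trans (Nat.gcd_dvd_left _ _)
  have h2 := hd.trans (Nat.gcd_dvd_right _ _)
  have h3 := Cfsg.Agent.H946.Num.mod_of_order hs (by norm_num) (od_N12 hs h1)
  obtain ⟨r, hr, hsr⟩ := (hs.prime.dvd_prod_iff).1 h2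
  obtain ⟨hr1, hr2⟩ := List.mem_filter.1 hr
  have h4 := (Nat.prime_dvd_prime_iff_eq hs (prs_prime r hr1)).1 hsr
  subst h4
  have h5 : s % 12 ≠ 1 := by simpa using hr2
  have := hs.two_le
  omega

theorem dvd_strip {q N : ℕ} (h : N12 q ∣ N) : N12 q ∣ strip N := by
  have h1 : Nat.Coprime (N12 q) (Nat.gcd N (badp ^ 100)) :=
    Nat.Coprime.coprime_dvd_right (Nat.gcd_dvd_right _ _) (coprime_badp.pow_right 100)
  have h2 : N = Nat.gcd N (badp ^ 100) * strip N := (Nat.mul_div_cancel' (Nat.gcd_dvd_left _ _)).symm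
  rw [h2] at h
  exact h1.dvd_of_dvd_mul_left h

theorem eq_two {q v : ℕ} (hq : 2 ≤ q) (hv : v ∈ [1, 13, 37, 481, 793, 2197]) (h : N12 q ∣ v) : q = 2 := by
  have hv' : 0 < v ∧ v ≤ 2197 := by
    simp only [List.mem_cons, List.not_mem_nil, or_false] at hv
    omega
  have h7 : q < 7 := by
    by_contra h7
    push Not at h7
    have h1 := (Nat.le_of_dvd hv'.1 h).trans hv'.2
    unfold N12 at h1
    have h2 : 7 ^ 2 ≤ q ^ 2 := Nat.pow_le_pow_left h7 2
    have h3 : q ^ 4 - q ^ 2 = q ^ 2 * (q ^ 2 - 1) := by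
      rw [Nat.mul_sub, mul_one, ← pow_add]
    have h4 : 49 * 48 ≤ q ^ 2 * (q ^ 2 - 1) := Nat.mul_le_mul h2 (by omega)
    omega
  simp only [List.mem_cons, List.not_mem_nil, or_false] at hv
  unfold N12 at h
  interval_cases q
  · rfl
  all_goals
    exfalso
    rcases hv with rfl | rfl | rfl | rfl | rfl | rfl <;> revert h <;> decide

/-- a multiple of the order of the automorphism group -/
def BN (x : Art.Sh × ℕ × ℕ) : ℕ := 24 * x.2.2 * ((x.2.1 ^ x.2.2) ^ Art.NN x.1 * numL x.1 (x.2.1 ^ x.2.2))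

theorem reg_chk : ((reg 28).all fun x => [1, 13, 37, 481, 793, 2197].contains (strip (BN x))) = true := by
  decide +kernel

theorem spor_chk : (Cfsg.Agent.OrdDiv.spor.all fun x => [1, 13, 37, 481, 793, 2197].contains (strip x.2)) = true := by
  decide +kernel

theorem spor_two : (Cfsg.Agent.OrdDiv.spor.all fun x => 211341312 % x.2 != 0) = true := by
  decide +kernel

/-- the test for `³D₄(2)` -/
def tst2 (x : Art.Sh × ℕ × ℕ) : Bool :=
  BN x % 13 == 0 && Art.dd x.1 (x.2.1 ^ x.2.2) * 211341312 % ((x.2.1 ^ x.2.2) ^ Art.NN x.1 * numL x.1 (x.2.1 ^ x.2.2)) == 0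

theorem reg_two : ((reg 28).all fun x => !tst2 x ||
    ([(.L 2, (3, 3)), (.L 2, (13, 1)), (.L 3, (3, 1)), (.TD4, (2, 1))] : List (Art.Sh × ℕ × ℕ)).contains x) = true := by
  decide +kernel

theorem dd_mul {X : Art.Sh} {l a M : ℕ} (hR : Art.Real X l a M) : 24 * Art.dd X (l ^ a) * a * M = BN (X, (l, a)) := by
  unfold BN
  rw [numL_eq, ← hR.eq]
  ring

theorem lie_two {X : Art.Sh} {l a M q : ℕ} (hR : Art.Real X l a M) (hlb : lb X (l ^ a) ≤ 28) (hq : 2 ≤ q)
    (h : N12 q ∣ 24 * Art.dd X (l ^ a) * a * M) : q = 2 := by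
  have h1 := List.all_eq_true.1 reg_chk _ (mem_reg (by norm_num) hR.hp hR.hf hR.ok hlb)
  rw [dd_mul hR] at h
  exact eq_two hq (by simpa using h1) (dvd_strip h)

theorem spor_two' {x : Cfsg.Agent.OrdDiv.Grp × ℕ} (hx : x ∈ Cfsg.Agent.OrdDiv.spor) {q : ℕ} (hq : 2 ≤ q)
    (h : N12 q ∣ x.2) : q = 2 := by
  have h1 := List.all_eq_true.1 spor_chk _ hx
  exact eq_two hq (by simpa using h1) (dvd_strip h)

theorem not_spor {x : Cfsg.Agent.OrdDiv.Grp × ℕ} (hx : x ∈ Cfsg.Agent.OrdDiv.spor) (h : x.2 ∣ 211341312) : False := by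
  have h1 := List.all_eq_true.1 spor_two _ hx
  have h2 := Nat.mod_eq_zero_of_dvd h
  simp [h2] at h1

theorem lie_list {X : Art.Sh} {l a M : ℕ} (hR : Art.Real X l a M) (hlb : lb X (l ^ a) ≤ 28) (h13 : 13 ∣ M)
    (hd : M ∣ 211341312) : (X, (l, a)) ∈ ([(.L 2, (3, 3)), (.L 2, (13, 1)), (.L 3, (3, 1)), (.TD4, (2, 1))] :
      List (Art.Sh × ℕ × ℕ)) := by
  have h1 := List.all_eq_true.1 reg_two _ (mem_reg (by norm_num) hR.hp hR.hf hR.ok hlb)
  have h2 : tst2 (X, (l, a)) = true := by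
    unfold tst2
    rw [Bool.and_eq_true]
    constructor
    · rw [← dd_mul hR]
      simp only [beq_iff_eq]
      exact Nat.mod_eq_zero_of_dvd (h13.mul_left _)
    · simp only [beq_iff_eq]
      refine Nat.mod_eq_zero_of_dvd ?_
      rw [numL_eq, ← hR.eq]
      exact Nat.mul_dvd_mul_left _ hd
  rw [h2] at h1
  simpa using h1

end Cfsg.Agent.H778.Spr
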