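import Cfsg.Agent.H946.Rad
import Cfsg.Agent.H23.FreeAct

/-!
# S3938, exceptional rows: cyclic groups acting freely on a normal elementary abelian subgroup (helper778)

`exists_wts_zpowers` : `G` a finite group with a faithful representation of degree `n` over a field of characteristic `p`,
`A ≠ 1` a normal abelian `p'`-subgroup, `x ∈ G` such that no element of prime order of `⟨x⟩` commutes with a nontrivial
element of `A`: the order of `x` divides a number `W` with `0 < W ≤ n`.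
-/

set_option autoImplicit false

namespace Cfsg.Agent.H778.Spr

open Cfsg.Agent.H290.ElWt Cfsg.Agent.H912.Bd Module

section fix

variable {K : Type*} [Field K] {V : Type*} [AddCommGroup V] [Module K V] {G : Type*} [Group G]
  (ρ : G →* Module.End K V) {A : Subgroup G} [A.Normal]

/-- an element acting freely on `A` fixes no nontrivial weight -/
theorem no_fixed [Finite G] {x : G} (fx : ∀ a ∈ A, x * a = a * x → a = 1) (χ : Wts ρ A) (h3 : x⁻¹ • χ = χ) : False := by
  have h4 : tw A x⁻¹ χ.1 = χ.1 := congrArg Subtype.val h3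
  obtain ⟨b, hb⟩ := χ.2.2
  -- `a ↦ a⁻¹ a^x` is surjective on `A`
  let g : A → A := fun a => ⟨(a : G)⁻¹ * (x * a * x⁻¹), mul_mem (inv_mem a.2) ((inferInstance : A.Normal).conj_mem a a.2 x)⟩
  have hg : Function.Injective g := by
    intro a a' h
    have h5 : (a : G)⁻¹ * (x * a * x⁻¹) = (a' : G)⁻¹ * (x * a' * x⁻¹) := congrArg Subtype.val h
    have h6 : x * ((a' : G) * (a : G)⁻¹) * x⁻¹ = (a' : G) * (a : G)⁻¹ := by
      have h7 : (a' : G) * ((a : G)⁻¹ * (x * a * x⁻¹)) * (x * a * x⁻¹)⁻¹ = x * a' * x⁻¹ * (x * a * x⁻¹)⁻¹ := by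
        rw [h5]; group
      have h8 : (a' : G) * ((a : G)⁻¹ * (x * a * x⁻¹)) * (x * a * x⁻¹)⁻¹ = (a' : G) * (a : G)⁻¹ := by group
      have h9 : x * a' * x⁻¹ * (x * a * x⁻¹)⁻¹ = x * ((a' : G) * (a : G)⁻¹) * x⁻¹ := by group
      rw [← h9, ← h7, h8]
    have h10 : (a' : G) * (a : G)⁻¹ = 1 := by
      refine fx _ (mul_mem a'.2 (inv_mem a.2)) ?_
      have := congrArg (fun z => z * x) h6
      simpa [mul_assoc] using this
    exact Subtype.ext (mul_inv_eq_one.1 h10).symm
  obtain ⟨a, ha⟩ := (Finite.surjective_of_injective hg) b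
  apply hb
  have h11 : χ.1 b = χ.1 (a⁻¹ * ⟨x * a * x⁻¹, (inferInstance : A.Normal).conj_mem a a.2 x⟩) := by
    rw [← ha]; rfl
  rw [h11, wt_mul ρ χ.2.1]
  have h12 : χ.1 ⟨x * a * x⁻¹, (inferInstance : A.Normal).conj_mem a a.2 x⟩ = χ.1 a := by
    have h13 := congrFun h4 a
    rw [← h13]
    exact congrArg χ.1 (Subtype.ext (by simp))
  rw [h12, ← wt_mul ρ χ.2.1, inv_mul_cancel, wt_one ρ χ.2.1]

end fix

variable {F : Type*} [Field F] {ι : Type*} [Fintype ι] [DecidableEq ι] {G : Type*} [Group G] [Finite G]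

/-- **The order of a cyclic group acting freely on `A` divides the number of the nontrivial weights of `A`.** -/
theorem exists_wts_zpowers {p : ℕ} [CharP F p] {τ : G →* GL ι F} (hτ : Function.Injective τ) {A : Subgroup G}
    [hAn : A.Normal] (hA : ∀ a ∈ A, ∀ b ∈ A, a * b = b * a) (hp : ¬ p ∣ Nat.card A) (hne : A ≠ ⊥) {x : G}
    (fx : ∀ y ∈ Subgroup.zpowers x, (orderOf y).Prime → ∀ a ∈ A, y * a = a * y → a = 1) :
    ∃ W : ℕ, 0 < W ∧ W ≤ Fintype.card ι ∧ orderOf x ∣ W := by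
  have : CharP (AlgebraicClosure F) p := charP_of_injective_algebraMap (algebraMap F _).injective p
  have hN : ((Nat.card A : ℕ) : AlgebraicClosure F) ≠ 0 := by
    intro h
    exact hp ((CharP.cast_eq_zero_iff (AlgebraicClosure F) p _).1 h)
  have hAN : ∀ a ∈ A, a ^ Nat.card A = 1 := by
    intro a ha
    have := pow_card_eq_one' (x := (⟨a, ha⟩ : A))
    exact congrArg Subtype.val this
  obtain ⟨hfin, hle⟩ := finite_wts (cl τ) hA hN hAN
  refine ⟨Nat.card (Wts (cl τ) A), ?_, by simpa using hle, ?_⟩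
  · by_contra h0
    have h5 : IsEmpty (Wts (cl τ) A) := by
      rcases Nat.card_eq_zero.1 (Nat.eq_zero_of_not_pos h0) with h | h
      · exact h
      · exact absurd hfin (not_finite_iff_infinite.2 h)
    apply hne
    rw [eq_bot_iff]
    intro a ha
    by_contra hne'
    obtain ⟨χ, hχ, hχa⟩ := exists_wt (cl τ) hA hN hAN (c := ⟨a, ha⟩) (fun h => hne'
      (Subgroup.mem_bot.2 (cl_injective hτ h)))
    exact h5.false ⟨χ, hχ, ⟨_, hχa⟩⟩
  · rw [← Nat.card_zpowers]
    refine H23.FreeAct.card_dvd_of_free fun d χ hd => ?_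
    by_contra hd1
    have hd' : orderOf (d : G) ≠ 1 := by
      rw [Ne, orderOf_eq_one_iff]
      intro h
      exact hd1 (Subtype.ext h)
    obtain ⟨ℓ, hℓ, hℓd⟩ := Nat.exists_prime_and_dvd hd'
    have h1 : orderOf ((d : G) ^ (orderOf (d : G) / ℓ)) = ℓ := by
      rw [orderOf_pow_of_dvd (Nat.div_pos (Nat.le_of_dvd (orderOf_pos _) hℓd) hℓ.pos).ne' (Nat.div_dvd_of_dvd hℓd)]
      exact Nat.div_div_self hℓd (orderOf_pos _).ne'
    have h2 : (d : G) • χ = χ := hd
    have h3 : ((d : G) ^ (orderOf (d : G) / ℓ)) • χ = χ := by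
      have h4 : (d : G) ∈ MulAction.stabilizer G χ := h2
      exact (pow_mem h4 _ : (d : G) ^ (orderOf (d : G) / ℓ) ∈ MulAction.stabilizer G χ)
    refine no_fixed (cl τ) (x := (d : G) ^ (orderOf (d : G) / ℓ)) (fun a ha h => fx _ (pow_mem d.2 _)
      (by rw [h1]; exact hℓ) a ha h) χ ?_
    have h5 : (d : G) ^ (orderOf (d : G) / ℓ) ∈ MulAction.stabilizer G χ := h3
    exact inv_mem h5

end Cfsg.Agent.H778.Spr
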